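import Mathlib.Analysis.Meromorphic.Basic
import Mathlib.Analysis.Complex.AbsMax
import Mathlib.Topology.OpenPartialHomeomorph.Continuity
import Mathlib.LinearAlgebra.FiniteDimensional.Lemmas
import Mathlib.LinearAlgebra.Dimension.Constructions
import Mathlib.Algebra.Polynomial.Eval.Coeff

/-!
# Siegel's theorem on algebraic dependence

Two meromorphic functions on a compact connected space with complex charts (no compatibility between the
charts is needed) are algebraically dependent.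
-/

set_option autoImplicit false

namespace Groth.Agent.Gaga.H369.Siegel

open Filter Topology Set

variable {T : Type*} [TopologicalSpace T]

lemma map_nhdsNE (e : OpenPartialHomeomorph ℂ T) {z : ℂ} (hz : z ∈ e.source) :
    map e (𝓝[≠] z) = 𝓝[≠] (e z) := by
  rw [e.map_nhdsWithin_eq hz]
  have : e '' (e.source ∩ {z}ᶜ) = e.target ∩ {e z}ᶜ := by
    ext q
    constructor
    · rintro ⟨w, ⟨hw, hwz⟩, rfl⟩
      exact ⟨e.map_source hw, fun h => hwz (e.injOn hw hz h)⟩
    · rintro ⟨hq, hqz⟩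
      refine ⟨e.symm q, ⟨e.map_target hq, fun h => hqz ?_⟩, e.right_inv hq⟩
      have h' : e.symm q = z := h
      show q = e z
      rw [← h', e.right_inv hq]
  rw [this, e.nhdsWithin_target_inter (e.map_source hz)]

lemma tendsto_chart (e : OpenPartialHomeomorph ℂ T) {z : ℂ} (hz : z ∈ e.source) {F : T → ℂ}
    {h : ℂ → ℂ} (hF : (F ∘ e) =ᶠ[𝓝[≠] z] h) (hh : ContinuousAt h z) :
    Tendsto F (𝓝[≠] (e z)) (𝓝 (h z)) := by
  rw [← map_nhdsNE e hz, tendsto_map'_iff]
  exact (hh.tendsto.mono_left nhdsWithin_le_nhds).congr' hF.symm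

lemma neBot_of_chart (e : OpenPartialHomeomorph ℂ T) {q : T} (hq : q ∈ e.target) :
    (𝓝[≠] q).NeBot := by
  have h := map_nhdsNE e (e.map_target hq)
  rw [e.right_inv hq] at h
  rw [← h]
  exact map_neBot

/-- Maximum principle on a compact connected space covered by complex charts. -/
theorem exists_const [CompactSpace T] [ConnectedSpace T] (F : T → ℂ)
    (hF : ∀ q, ∃ e : OpenPartialHomeomorph ℂ T, q ∈ e.target ∧ ∃ h : ℂ → ℂ,
      AnalyticAt ℂ h (e.symm q) ∧ (F ∘ e) =ᶠ[𝓝[≠] (e.symm q)] h) :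
    ∃ a : ℂ, ∀ q, Tendsto F (𝓝[≠] q) (𝓝 a) := by
  choose e he h hh hFh using hF
  have hz : ∀ q, (e q).symm q ∈ (e q).source := fun q => (e q).map_target (he q)
  let G : T → ℂ := fun q => h q ((e q).symm q)
  have hG : ∀ q, Tendsto F (𝓝[≠] q) (𝓝 (G q)) := fun q => by
    have := tendsto_chart (e q) (hz q) (hFh q) (hh q).continuousAt
    rwa [(e q).right_inv (he q)] at this
  have hne : ∀ q : T, (𝓝[≠] q).NeBot := fun q => neBot_of_chart (e q) (he q)
  have hloc : ∀ q, (G ∘ e q) =ᶠ[𝓝 ((e q).symm q)] h q := by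
    intro q
    have h1 : ∀ᶠ w in 𝓝 ((e q).symm q), AnalyticAt ℂ (h q) w := (hh q).eventually_analyticAt
    have h2 : ∀ᶠ w in 𝓝 ((e q).symm q), w ∈ (e q).source := (e q).open_source.mem_nhds (hz q)
    have h3 : ∀ᶠ w in 𝓝 ((e q).symm q), ((F ∘ e q) =ᶠ[𝓝[≠] w] h q) := by
      have h4 := eventually_nhdsWithin_iff.1 (hFh q)
      filter_upwards [eventually_eventually_nhds.2 h4] with w hw
      by_cases hwz : w = (e q).symm q
      · rw [hwz] at hw ⊢
        exact eventually_nhdsWithin_iff.2 hw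
      · have h5 : ∀ᶠ w' in 𝓝 w, w' ≠ (e q).symm q := isOpen_ne.mem_nhds hwz
        exact ((hw.and h5).filter_mono nhdsWithin_le_nhds).mono fun w' h => h.1 h.2
    filter_upwards [h1, h2, h3] with w hw1 hw2 hw3
    exact tendsto_nhds_unique (hG (e q w)) (tendsto_chart (e q) hw2 hw3 hw1.continuousAt)
  have hmap : ∀ q, map (e q) (𝓝 ((e q).symm q)) = 𝓝 q := fun q => by
    rw [(e q).map_nhds_eq (hz q), (e q).right_inv (he q)]
  have hcont : Continuous G := by
    rw [continuous_iff_continuousAt]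
    intro q
    show Tendsto G (𝓝 q) (𝓝 (G q))
    rw [← hmap q, tendsto_map'_iff]
    exact ((hh q).continuousAt.tendsto).congr' (hloc q).symm
  obtain ⟨q₀, -, hq₀⟩ := isCompact_univ.exists_isMaxOn (univ_nonempty (α := T))
    (hcont.norm.continuousOn)
  have hmax : ∀ q, ‖G q‖ ≤ ‖G q₀‖ := fun q => hq₀ (mem_univ q)
  have hclopen : IsClopen {q | G q = G q₀} := by
    refine ⟨isClosed_eq hcont continuous_const, ?_⟩
    rw [isOpen_iff_mem_nhds]
    intro q hq
    have hq' : G q = G q₀ := hq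
    have hd : ∀ᶠ w in 𝓝 ((e q).symm q), DifferentiableAt ℂ (h q) w :=
      (hh q).eventually_analyticAt.mono fun w hw => hw.differentiableAt
    have hc : IsLocalMax (norm ∘ h q) ((e q).symm q) := by
      filter_upwards [hloc q] with w hw
      show ‖h q w‖ ≤ ‖G q‖
      rw [← hw, hq']
      exact hmax _
    have h6 := Complex.eventually_eq_of_isLocalMax_norm hd hc
    rw [← hmap q]
    show ∀ᶠ w in 𝓝 ((e q).symm q), G (e q w) = G q₀
    filter_upwards [h6, hloc q] with w hw hw'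
    have hw'' : G (e q w) = h q w := hw'
    rw [hw'', hw]
    exact hq'
  have huniv := hclopen.eq_univ ⟨q₀, rfl⟩
  refine ⟨G q₀, fun q => ?_⟩
  have : q ∈ {q | G q = G q₀} := huniv ▸ mem_univ q
  have h7 : G q = G q₀ := this
  rw [← h7]
  exact hG q

/-- Finitely many linear conditions for a zero of order `≥ M`. -/
lemma exists_linear {ι : Type*} [Fintype ι] (h : ι → ℂ → ℂ) (z₀ : ℂ)
    (hh : ∀ i, AnalyticAt ℂ (h i) z₀) (M : ℕ) :
    ∃ L : (ι → ℂ) →ₗ[ℂ] (Fin M → ℂ), ∀ c, L c = 0 → ∃ g : ℂ → ℂ, AnalyticAt ℂ g z₀ ∧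
      ∀ᶠ z in 𝓝 z₀, ∑ i, c i * h i z = (z - z₀) ^ M * g z := by
  refine ⟨{ toFun := fun c j => ∑ i, c i * iteratedDeriv j (h i) z₀,
            map_add' := ?_, map_smul' := ?_ }, ?_⟩
  · intro c d
    ext j
    simp [add_mul, Finset.sum_add_distrib]
  · intro a c
    ext j
    simp [Finset.mul_sum, mul_assoc]
  · intro c hc
    have han : AnalyticAt ℂ (fun z => ∑ i, c i * h i z) z₀ :=
      Finset.analyticAt_fun_sum _ fun i _ => analyticAt_const.mul (hh i)
    have key := (natCast_le_analyticOrderAt han (n := M)).1 ?_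
    · simpa [smul_eq_mul] using key
    · rw [natCast_le_analyticOrderAt_iff_iteratedDeriv_eq_zero han]
      intro j hj
      have hcd : ∀ i ∈ (Finset.univ : Finset ι), ContDiffAt ℂ j (fun z => c i * h i z) z₀ :=
        fun i _ => (analyticAt_const.mul (hh i)).contDiffAt
      rw [iteratedDeriv_fun_sum hcd]
      simp only [iteratedDeriv_const_mul_field]
      exact congrFun hc ⟨j, hj⟩

theorem siegel {T : Type*} [TopologicalSpace T] [CompactSpace T] [T2Space T] [ConnectedSpace T]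
    (c : T → OpenPartialHomeomorph ℂ T) (hc : ∀ p, p ∈ (c p).target) (f g : T → ℂ)
    (hf : ∀ p, MeromorphicOn (f ∘ c p) (c p).source)
    (hg : ∀ p, MeromorphicOn (g ∘ c p) (c p).source) :
    ∃ P : Polynomial (Polynomial ℂ), P ≠ 0 ∧ ∃ S : Set T, S.Finite ∧
      ∀ q ∉ S, (P.map (Polynomial.evalRingHom (f q))).eval (g q) = 0 := by
  classical
  -- centres
  let z : T → ℂ := fun p => (c p).symm p
  have hzs : ∀ p, z p ∈ (c p).source := fun p => (c p).map_target (hc p)
  have hcz : ∀ p, c p (z p) = p := fun p => (c p).right_inv (hc p)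
  have hmer : ∀ p, ∃ n : ℕ, AnalyticAt ℂ (fun w => (w - z p) ^ n * f (c p w)) (z p) ∧
      AnalyticAt ℂ (fun w => (w - z p) ^ n * g (c p w)) (z p) := by
    intro p
    obtain ⟨n1, h1⟩ := hf p (z p) (hzs p)
    obtain ⟨n2, h2⟩ := hg p (z p) (hzs p)
    have hpow : ∀ m : ℕ, AnalyticAt ℂ (fun w : ℂ => (w - z p) ^ m) (z p) := fun m => by fun_prop
    refine ⟨n1 + n2, ?_, ?_⟩
    · refine ((hpow n2).mul h1).congr (Eventually.of_forall fun w => ?_)
      simp only [Pi.mul_apply, Function.comp_apply, smul_eq_mul]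
      ring
    · refine ((hpow n1).mul h2).congr (Eventually.of_forall fun w => ?_)
      simp only [Pi.mul_apply, Function.comp_apply, smul_eq_mul]
      ring
  choose n hA hB using hmer
  let A : T → ℂ → ℂ := fun p w => (w - z p) ^ n p * f (c p w)
  let B : T → ℂ → ℂ := fun p w => (w - z p) ^ n p * g (c p w)
  let V : T → Set ℂ := fun p => (c p).source ∩ ({w | AnalyticAt ℂ (A p) w} ∩ {w | AnalyticAt ℂ (B p) w})
  have hVo : ∀ p, IsOpen (V p) := fun p =>
    (c p).open_source.inter ((isOpen_analyticAt ℂ (A p)).inter (isOpen_analyticAt ℂ (B p)))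
  have hVs : ∀ p, V p ⊆ (c p).source := fun p => inter_subset_left
  have hU : ∀ p, (c p) '' (V p) ∈ 𝓝 p := fun p =>
    ((c p).isOpen_image_of_subset_source (hVo p) (hVs p)).mem_nhds
      ⟨z p, ⟨hzs p, hA p, hB p⟩, hcz p⟩
  obtain ⟨t, ht⟩ := CompactSpace.elim_nhds_subcover _ hU
  have hcov : ∀ q : T, ∃ p ∈ t, ∃ w ∈ V p, c p w = q := by
    intro q
    have : q ∈ ⋃ p ∈ t, (c p) '' (V p) := by rw [ht]; trivial
    simpa only [mem_iUnion, exists_prop, mem_image] using this
  -- sizes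
  let N : ℕ := ∑ p ∈ t, n p
  let k : ℕ := 2 * N + t.card
  let I := Fin (k + 1) × Fin (k + 1)
  let hfun : T → I → ℂ → ℂ := fun p ab w =>
    (w - z p) ^ ((2 * k - ab.1 - ab.2) * n p) * (A p w ^ (ab.1 : ℕ) * B p w ^ (ab.2 : ℕ))
  have hfun_an : ∀ p ab w, w ∈ V p → AnalyticAt ℂ (hfun p ab) w := by
    intro p ab w hw
    have h1 : AnalyticAt ℂ (A p) w := hw.2.1
    have h2 : AnalyticAt ℂ (B p) w := hw.2.2
    have h3 : AnalyticAt ℂ (fun w : ℂ => (w - z p) ^ ((2 * k - ab.1 - ab.2) * n p)) w := by fun_prop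
    exact h3.mul ((h1.pow _).mul (h2.pow _))
  have hfun_eq : ∀ p ab w, hfun p ab w =
      (w - z p) ^ (2 * k * n p) * (f (c p w) ^ (ab.1 : ℕ) * g (c p w) ^ (ab.2 : ℕ)) := by
    intro p ab w
    have h1 := ab.1.2
    have h2 := ab.2.2
    have h3 : 2 * k * n p = (2 * k - ab.1 - ab.2) * n p + n p * ab.1 + n p * ab.2 := by
      have : 2 * k = (2 * k - ab.1 - ab.2) + ab.1 + ab.2 := by omega
      calc 2 * k * n p = ((2 * k - ab.1 - ab.2) + ab.1 + ab.2) * n p := by rw [← this]
        _ = _ := by ring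
    simp only [hfun, A, B]
    rw [h3, mul_pow, mul_pow, ← pow_mul, ← pow_mul]
    ring
  have hL : ∀ p, ∃ L : (I → ℂ) →ₗ[ℂ] (Fin (2 * k * n p + 1) → ℂ), ∀ d, L d = 0 →
      ∃ G : ℂ → ℂ, AnalyticAt ℂ G (z p) ∧
      ∀ᶠ w in 𝓝 (z p), ∑ i, d i * hfun p i w = (w - z p) ^ (2 * k * n p + 1) * G w := fun p =>
    exists_linear (hfun p) (z p) (fun i => hfun_an p i (z p) ⟨hzs p, hA p, hB p⟩) _
  choose L hL using hL
  -- the linear algebra
  let LL : (I → ℂ) →ₗ[ℂ] (∀ p : t, Fin (2 * k * n p + 1) → ℂ) := LinearMap.pi fun p => L p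
  have hker : LinearMap.ker LL ≠ ⊥ := by
    apply LinearMap.ker_ne_bot_of_finrank_lt
    rw [Module.finrank_pi_fintype, Module.finrank_fintype_fun_eq_card]
    simp only [Module.finrank_fintype_fun_eq_card, Fintype.card_fin, I, Fintype.card_prod]
    have h1 : ∑ p : t, (2 * k * n p + 1) = 2 * k * N + t.card := by
      rw [Finset.sum_coe_sort t (fun p => 2 * k * n p + 1), Finset.sum_add_distrib,
        ← Finset.mul_sum]
      simp [N]
    rw [h1]
    have h2 : 2 * N ≤ k := Nat.le_add_right _ _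
    have h3 : t.card ≤ k := Nat.le_add_left _ _
    nlinarith [Nat.mul_le_mul_left k h2]
  obtain ⟨d, hd, hd0⟩ := Submodule.exists_mem_ne_zero_of_ne_bot hker
  have hLd : ∀ p ∈ t, L p d = 0 := fun p hp => congrFun (LinearMap.mem_ker.1 hd) ⟨p, hp⟩
  let F : T → ℂ := fun q => ∑ i : I, d i * (f q ^ (i.1 : ℕ) * g q ^ (i.2 : ℕ))
  -- analyticity off the centres
  have hoff : ∀ p w, w ∈ V p → w ≠ z p → AnalyticAt ℂ (F ∘ c p) w := by
    intro p w hw hwz
    have hsub : w - z p ≠ 0 := sub_ne_zero.2 hwz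
    have hpow : AnalyticAt ℂ (fun w : ℂ => (w - z p) ^ n p) w := by fun_prop
    have hinv : AnalyticAt ℂ (fun w : ℂ => ((w - z p) ^ n p)⁻¹) w := hpow.inv (pow_ne_zero _ hsub)
    have hev : ∀ᶠ w' in 𝓝 w, w' ≠ z p := isOpen_ne.mem_nhds hwz
    have h1 : AnalyticAt ℂ (fun w => f (c p w)) w := by
      refine (hinv.mul hw.2.1).congr (hev.mono fun w' hw' => ?_)
      have : (w' - z p) ^ n p ≠ 0 := pow_ne_zero _ (sub_ne_zero.2 hw')
      simp only [Pi.mul_apply, A]
      field_simp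
    have h2 : AnalyticAt ℂ (fun w => g (c p w)) w := by
      refine (hinv.mul hw.2.2).congr (hev.mono fun w' hw' => ?_)
      have : (w' - z p) ^ n p ≠ 0 := pow_ne_zero _ (sub_ne_zero.2 hw')
      simp only [Pi.mul_apply, B]
      field_simp
    exact Finset.analyticAt_fun_sum _ fun i _ => analyticAt_const.mul ((h1.pow _).mul (h2.pow _))
  -- behaviour at the centres
  have hcen : ∀ p ∈ t, ∃ H : ℂ → ℂ, AnalyticAt ℂ H (z p) ∧ H (z p) = 0 ∧
      (F ∘ c p) =ᶠ[𝓝[≠] (z p)] H := by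
    intro p hp
    obtain ⟨G, hG, hGe⟩ := hL p d (hLd p hp)
    refine ⟨fun w => (w - z p) * G w, ?_, by simp, ?_⟩
    · have : AnalyticAt ℂ (fun w : ℂ => w - z p) (z p) := by fun_prop
      exact this.mul hG
    · refine eventually_nhdsWithin_iff.2 (hGe.mono fun w hw hwz => ?_)
      have hne : (w - z p) ^ (2 * k * n p) ≠ 0 := pow_ne_zero _ (sub_ne_zero.2 hwz)
      have h1 : (w - z p) ^ (2 * k * n p) * F (c p w) = (w - z p) ^ (2 * k * n p) *
          ((w - z p) * G w) := by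
        rw [← mul_assoc, ← pow_succ, ← hw, Finset.mul_sum]
        refine Finset.sum_congr rfl fun i _ => ?_
        rw [hfun_eq]
        ring
      exact mul_left_cancel₀ hne h1
  obtain ⟨a, ha⟩ := exists_const F (by
    intro q
    obtain ⟨p, hp, w, hw, rfl⟩ := hcov q
    refine ⟨c p, (c p).map_source (hVs p hw), ?_⟩
    rw [(c p).left_inv (hVs p hw)]
    by_cases hwz : w = z p
    · rw [hwz]
      obtain ⟨H, h1, -, h2⟩ := hcen p hp
      exact ⟨H, h1, h2⟩
    · exact ⟨F ∘ c p, hoff p w hw hwz, EventuallyEq.rfl⟩)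
  have ha0 : a = 0 := by
    obtain ⟨q⟩ : Nonempty T := inferInstance
    obtain ⟨p, hp, -⟩ := hcov q
    obtain ⟨H, h1, h2, h3⟩ := hcen p hp
    have h4 := tendsto_chart (c p) (hzs p) h3 h1.continuousAt
    rw [h2, hcz p] at h4
    have := neBot_of_chart (c p) (hc p)
    exact tendsto_nhds_unique (ha p) h4
  refine ⟨∑ i : I, Polynomial.monomial (i.2 : ℕ) (Polynomial.monomial (i.1 : ℕ) (d i)), ?_,
    (t : Set T), t.finite_toSet, ?_⟩
  · intro h0
    apply hd0
    ext ⟨i, j⟩
    have h1 := congrArg (fun P : Polynomial (Polynomial ℂ) => (P.coeff (j : ℕ)).coeff (i : ℕ)) h0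
    simp only [Polynomial.finsetSum_coeff, Polynomial.coeff_monomial, Polynomial.coeff_zero] at h1
    rw [Finset.sum_eq_single (i, j)] at h1
    · simpa using h1
    · rintro ⟨i', j'⟩ - hne
      by_cases h2 : (j' : ℕ) = j
      · have h3 : (i' : ℕ) ≠ i := fun h4 => hne (by ext <;> assumption)
        simp [h2, Polynomial.coeff_monomial, h3]
      · simp [h2]
    · intro h2
      exact absurd (Finset.mem_univ _) h2
  · intro q hq
    have hFq : F q = 0 := by
      obtain ⟨p, hp, w, hw, rfl⟩ := hcov q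
      have hwz : w ≠ z p := by
        rintro rfl
        exact hq (by rw [hcz p]; exact hp)
      have h4 := tendsto_chart (c p) (hVs p hw) (F := F) EventuallyEq.rfl
        (hoff p w hw hwz).continuousAt
      have := neBot_of_chart (c p) ((c p).map_source (hVs p hw))
      exact (tendsto_nhds_unique h4 (ha _)).trans ha0
    rw [← hFq, Polynomial.map_sum, Polynomial.eval_finsetSum]
    refine Finset.sum_congr rfl fun i _ => ?_
    simp only [Polynomial.map_monomial, Polynomial.eval_monomial, Polynomial.coe_evalRingHom]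
    ring

end Groth.Agent.Gaga.H369.Siegel
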